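import Cfsg.Agent.Lib.PermGroups.SelfCentralizingNine

/-!
# The two possible normalizers of a self-centralizing Sylow subgroup of order nine
-/

set_option autoImplicit false
set_option linter.style.haveILetI false
set_option linter.unusedSectionVars false

namespace CfsgLib.PermGroups

open Cfsg CfsgLib.CharTheory CfsgLib.Blocks CfsgLib.BrauerCharacters CfsgLib.BlockSections
open CfsgLib.BlockSections.Exceptional Finset
open scoped ComplexConjugate

theorem inv_mul_notMem_quad {K : Type*} [CommGroup K] (h3 : ∀ x : K, x ^ 3 = 1) {u v : K}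
    (hu : u ≠ 1) (hv : v ≠ 1) (hne : v ≠ u) (hne' : v ≠ u⁻¹) :
    u⁻¹ * v ≠ u ∧ u⁻¹ * v ≠ u⁻¹ ∧ u⁻¹ * v ≠ v ∧ u⁻¹ * v ≠ v⁻¹ := by
  have h2 : ∀ x : K, x * x = x⁻¹ := fun x =>
    eq_inv_of_mul_eq_one_left (by rw [← pow_three']; exact h3 x)
  refine ⟨fun e => hne' ?_, fun e => hv ?_, fun e => hu ?_, fun e => hne ?_⟩
  · rw [← h2 u]; exact inv_mul_eq_iff_eq_mul.1 e
  · exact mul_left_cancel (e.trans (mul_one u⁻¹).symm)
  · exact inv_eq_one.1 (mul_right_cancel (e.trans (one_mul v).symm))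
  · have e1 : u⁻¹ = v⁻¹ * v⁻¹ := eq_mul_inv_iff_mul_eq.2 e
    rw [h2 v⁻¹, inv_inv] at e1
    exact absurd e1.symm hne'

variable {G : Type*} [Group G] [Fintype G] [hp : Fact (Nat.Prime 3)] {P : Sylow 3 G}

theorem SelfCentNine.pow_three_eq (h : SelfCentNine P) (x : (P : Subgroup G)) : x ^ 3 = 1 :=
  Subtype.ext (h.exp x x.2)

theorem SelfCentNine.exists_notMem_zpowers (h : SelfCentNine P) (u : (P : Subgroup G)) :
    ∃ y : (P : Subgroup G), y ≠ 1 ∧ y ≠ u ∧ y ≠ u⁻¹ := by
  classical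
  by_contra hne
  push Not at hne
  have hsub : (univ : Finset (P : Subgroup G)) ⊆ {1, u, u⁻¹} := fun y _ => by
    by_cases h1 : y = 1
    · simp [h1]
    by_cases h2 : y = u
    · simp [h2]
    simp [hne y h1 h2]
  have hc := (card_le_card hsub).trans card_le_three
  rw [card_univ, ← Nat.card_eq_fintype_card, h.card] at hc
  omega

variable (h : SelfCentNine P) {M : Ideal AlgInt} [M.IsPrime] (hM : IsPModular 3 M)
include h hM

open scoped Classical in
theorem SelfCentNine.block_sum_self {m : ℕ} (hF : IsFrobSylow P m) {y : (P : Subgroup G)}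
    (hy : y ≠ 1) : ∑ χ ∈ blockFinset (principalBlock M G),
      (χ : G → ℂ) y * conj ((χ : G → ℂ) y) = 9 := by
  rw [sum_principal_sq_eq hF hM y.2 fun e => hy (Subtype.ext e), h.card]
  norm_num

open scoped Classical in
theorem SelfCentNine.block_sum_ne {m : ℕ} (hF : IsFrobSylow P m) {u y : (P : Subgroup G)}
    (hu : u ≠ 1) (hy : y ≠ 1) (huy : ¬ IsConj (u : G) y) : ∑ χ ∈ blockFinset (principalBlock M G),
      (χ : G → ℂ) u * conj ((χ : G → ℂ) y) = 0 := by
  rw [sum_mul_conj_eq hF hM hu hy, sum_eq_zero (s := (univ : Finset (autP P))) fun α _ =>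
    if_neg fun e => huy ((isConj_iff_autP hF).2 ⟨α, α.2, e⟩), mul_zero]

/-- Degrees in the exceptional family and in the constant rows. -/
theorem SelfCentNine.deg_data {m : ℕ} (hF : IsFrobSylow P m) (D : ExcData 3 M P m) :
    ∃ x : ℕ, 0 < x ∧ (∀ η ∈ D.Y, (η : G → ℂ) 1 = (x : ℂ)) ∧
      ((Nat.card D.Y : ℤ) * D.d - D.δ) * x + 1 +
        ∑ χ ∈ D.X.toFinite.toFinset.erase (trivIrr G), D.a χ * (charDegree (χ : G → ℂ) : ℤ) = 0 := by
  classical
  obtain ⟨η₀, hη₀⟩ : D.Y.Nonempty := by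
    rcases D.Y.eq_empty_or_nonempty with e | e
    · have := D.two_le; rw [e] at this; simp at this
    · exact e
  have h1 : ¬ 3 ∣ orderOf (1 : G) := by rw [orderOf_one]; norm_num
  refine ⟨charDegree (η₀ : G → ℂ), (charDegree_spec η₀).2.1, fun η hη => by
    rw [D.agree η hη η₀ hη₀ 1 h1, (charDegree_spec η₀).1], ?_⟩
  have hreg := h.reg_one hM hF D hη₀
  rw [← add_sum_erase _ _ (D.X.toFinite.mem_toFinset.2 D.triv), D.a_triv, trivIrr_apply,
    (charDegree_spec η₀).1, sum_congr rfl fun χ _ => by rw [(charDegree_spec χ).1]] at hreg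
  apply Int.cast_injective (α := ℂ)
  push_cast at hreg ⊢
  linear_combination hreg

open scoped Classical in
/-- The class equation split over the two sides. -/
theorem SelfCentNine.count_split {m : ℕ} (hF : IsFrobSylow P m) (D : ExcData 3 M P m)
    (h2 : 2 ∣ nineIndex P) {u y : (P : Subgroup G)} (hu : u ≠ 1) (hy : y ≠ 1) {x : ℕ}
    (hx : ∀ η ∈ D.Y, (η : G → ℂ) 1 = (x : ℂ)) :
    ((univ.filter fun z => IsConj (u : G) z ∧ IsConj (u : G) (z * y)).card : ℂ) =
      (Nat.card G : ℂ) / 81 *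
        (1 + ∑ χ ∈ D.X.toFinite.toFinset.erase (trivIrr G),
            (D.a χ : ℂ) ^ 3 / (charDegree (χ : G → ℂ) : ℂ) +
          (∑ η ∈ D.Y.toFinite.toFinset, (η : G → ℂ) u ^ 2 * (η : G → ℂ) y) / (x : ℂ)) := by
  rw [h.count_formula hM u.2 (fun e => hu (Subtype.ext e)) y.2 (fun e => hy (Subtype.ext e)),
    sum_split hM D, finsum_mem_eq_finite_toFinset_sum _ D.X.toFinite,
    finsum_mem_eq_finite_toFinset_sum _ D.Y.toFinite,
    ← add_sum_erase _ _ (D.X.toFinite.mem_toFinset.2 D.triv)]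
  congr 1
  congr 1
  · congr 1
    · simp [trivIrr_apply]
    · refine sum_congr rfl fun χ hχ => ?_
      have hX := D.X.toFinite.mem_toFinset.1 (mem_of_mem_erase hχ)
      rw [h.val_X hM hF D hX u.2 (fun e => hu (Subtype.ext e)),
        h.val_X hM hF D hX y.2 (fun e => hy (Subtype.ext e)), map_intCast, (charDegree_spec χ).1]
      ring
  · rw [sum_div]
    refine sum_congr rfl fun η hη => ?_
    rw [h.real_apply hM hF h2 η u.2, hx η (D.Y.toFinite.mem_toFinset.1 hη)]
    ring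

/-- With a normalizer of index four the order is at most 720. -/
theorem SelfCentNine.card_le_of_four (h4 : nineIndex P = 4) : Nat.card G ≤ 720 := by
  classical
  haveI := h.comm
  letI : CommGroup (P : Subgroup G) := { mul_comm := mul_comm' }
  have hF : IsFrobSylow P 4 := h4 ▸ h.isFrobSylow
  have h2 : 2 ∣ nineIndex P := by rw [h4]; norm_num
  obtain ⟨D⟩ := exists_excData hF hM (by norm_num) (by rw [h.card]; norm_num)
  have hr : Nat.card D.Y = 2 := by
    have := D.card_Y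
    rw [h.card] at this
    omega
  -- two classes
  obtain ⟨u, hu, -, -⟩ := h.exists_notMem_zpowers (1 : (P : Subgroup G))
  obtain ⟨α, hα, hα1, hαi⟩ := h.exists_inversion h2
  obtain ⟨β, hβ, hβ1, hβα⟩ : ∃ β ∈ autP P, β ≠ 1 ∧ β ≠ α := by
    by_contra hne
    push Not at hne
    have hsub : (univ : Finset (autP P)) ⊆ {1, ⟨α, hα⟩} := fun b _ => by
      by_cases hb : (b : MulAut (P : Subgroup G)) = 1
      · simp [show b = 1 from Subtype.ext hb]
      · simp [show b = ⟨α, hα⟩ from Subtype.ext (hne b b.2 hb)]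
    have hc := (card_le_card hsub).trans card_le_two
    rw [card_univ, ← Nat.card_eq_fintype_card, card_autP hF] at hc
    omega
  set v := β u with hvdef
  have hv : v ≠ 1 := fun e => hu (β.injective (e.trans (map_one _).symm))
  have hvu : v ≠ u := fun e => hβ1 (autP_free hF hβ hu e)
  have hvu' : v ≠ u⁻¹ := fun e => hβα (eq_of_autP_apply hF hβ hα hu (e.trans (hαi u).symm))
  have hne : ∀ w : (P : Subgroup G), w ≠ 1 → w ≠ w⁻¹ := fun w hw e => hw (by
    have h3 := h.pow_three_eq w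
    rw [pow_three'] at h3
    nth_rewrite 2 [e] at h3
    rwa [mul_inv_cancel, one_mul] at h3)
  have horb : ∀ w : (P : Subgroup G), IsConj (u : G) w ↔ w = u ∨ w = u⁻¹ ∨ w = v ∨ w = v⁻¹ := by
    set O := (univ : Finset (autP P)).image fun γ : autP P => (γ : MulAut (P : Subgroup G)) u
    have hO : ∀ w, w ∈ O ↔ IsConj (u : G) w := fun w => by
      rw [isConj_iff_autP hF]
      simp [O]
    have hsub : ({u, u⁻¹, v, v⁻¹} : Finset (P : Subgroup G)) ⊆ O := by
      intro w hw
      simp only [Finset.mem_insert, Finset.mem_singleton] at hw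
      rw [hO, isConj_iff_autP hF]
      rcases hw with rfl | rfl | rfl | rfl
      · exact ⟨1, one_mem _, rfl⟩
      · exact ⟨α, hα, hαi u⟩
      · exact ⟨β, hβ, rfl⟩
      · exact ⟨α * β, mul_mem hα hβ, hαi v⟩
    have h1 : u ≠ u⁻¹ := hne u hu
    have h5 : u ≠ v⁻¹ := fun e => hvu' (by rw [e, inv_inv])
    have h6 : u⁻¹ ≠ v⁻¹ := fun e => hvu (inv_injective e).symm
    have hcard : ({u, u⁻¹, v, v⁻¹} : Finset (P : Subgroup G)).card = 4 := by
      rw [card_insert_of_notMem (by simp [h1, hvu.symm, h5]),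
        card_insert_of_notMem (by simp [hvu'.symm, h6]), card_pair (hne v hv)]
    have he := eq_of_subset_of_card_le hsub (by
      rw [hcard]
      refine card_image_le.trans ?_
      rw [card_univ, ← Nat.card_eq_fintype_card, card_autP hF])
    intro w
    rw [← hO, ← he]
    simp
  have q := inv_mul_notMem_quad h.pow_three_eq hu hv hvu hvu'
  have q' := inv_mul_notMem_quad h.pow_three_eq hv hu hvu.symm (fun e => hvu' (by rw [e, inv_inv]))
  have qy := inv_mul_notMem_quad h.pow_three_eq (u := u⁻¹) (v := v) (fun e => hu (inv_eq_one.1 e)) hv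
    hvu' (by rwa [inv_inv])
  rw [inv_inv] at qy
  set y := u * v with hydef
  have hy : y ≠ 1 := fun e => hvu' (eq_inv_of_mul_eq_one_right e)
  have huy : ¬ IsConj (u : G) y := by
    rw [horb]
    rintro (e | e | e | e)
    · exact qy.2.1 e
    · exact qy.1 e
    · exact qy.2.2.1 e
    · exact qy.2.2.2 e
  -- the count
  have hcount : (univ.filter fun z => IsConj (u : G) z ∧ IsConj (u : G) (z * y)).card = 2 := by
    rw [show (univ.filter fun z => IsConj (u : G) z ∧ IsConj (u : G) (z * y)) =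
      {((u⁻¹ : (P : Subgroup G)) : G), ((v⁻¹ : (P : Subgroup G)) : G)} from ?_]
    · exact card_pair fun e => hvu (inv_injective (Subtype.ext e)).symm
    ext z
    simp only [mem_filter, mem_univ, true_and, Finset.mem_insert, Finset.mem_singleton]
    constructor
    · rintro ⟨hz, hzy⟩
      have hzP := h.mem_of_triangle u.2 (fun e => hu (Subtype.ext e)) y.2 (fun e => hy (Subtype.ext e))
        huy hz hzy
      have hz' := (horb ⟨z, hzP⟩).1 hz
      have hzy' := (horb (⟨z, hzP⟩ * y)).1 hzy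
      rcases hz' with e | e | e | e
      · rw [e, hydef, show u * (u * v) = u⁻¹ * v by
          rw [← mul_assoc, show u * u = u⁻¹ from eq_inv_of_mul_eq_one_left (by
            rw [← pow_three']; exact h.pow_three_eq u)]] at hzy'
        rcases hzy' with e' | e' | e' | e'
        · exact absurd e' q.1
        · exact absurd e' q.2.1
        · exact absurd e' q.2.2.1
        · exact absurd e' q.2.2.2
      · exact Or.inl (congrArg Subtype.val e)
      · rw [e, hydef, show v * (u * v) = v⁻¹ * u by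
          rw [mul_comm u v, ← mul_assoc, show v * v = v⁻¹ from eq_inv_of_mul_eq_one_left (by
            rw [← pow_three']; exact h.pow_three_eq v)]] at hzy'
        rcases hzy' with e' | e' | e' | e'
        · exact absurd e' q'.2.2.1
        · exact absurd e' q'.2.2.2
        · exact absurd e' q'.1
        · exact absurd e' q'.2.1
      · exact Or.inr (congrArg Subtype.val e)
    · rintro (rfl | rfl)
      · refine ⟨(horb _).2 (Or.inr (Or.inl rfl)), ?_⟩
        rw [← Subgroup.coe_mul, horb, hydef, inv_mul_cancel_left]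
        exact Or.inr (Or.inr (Or.inl rfl))
      · refine ⟨(horb _).2 (Or.inr (Or.inr (Or.inr rfl))), ?_⟩
        rw [← Subgroup.coe_mul, horb, hydef, mul_comm u v, inv_mul_cancel_left]
        exact Or.inl rfl
  -- the rows
  set XE := D.X.toFinite.toFinset.erase (trivIrr G) with hXE
  have hsumX : ∑ χ ∈ D.X.toFinite.toFinset, D.a χ ^ 2 = 1 + ∑ χ ∈ XE, D.a χ ^ 2 := by
    rw [← add_sum_erase _ _ (D.X.toFinite.mem_toFinset.2 D.triv), D.a_triv, one_pow]
  have hnorm := D.norm
  rw [hr, finsum_mem_eq_finite_toFinset_sum _ D.X.toFinite, hsumX] at hnorm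
  push_cast at hnorm
  have hnn : 0 ≤ ∑ χ ∈ XE, D.a χ ^ 2 := sum_nonneg fun χ _ => sq_nonneg _
  have hd : D.d = 0 ∨ D.d = D.δ := by
    have hlo : -2 ≤ D.d := by rcases D.sign with e | e <;> rw [e] at hnorm <;> nlinarith
    have hhi : D.d ≤ 2 := by rcases D.sign with e | e <;> rw [e] at hnorm <;> nlinarith
    rcases D.sign with e | e <;> rw [e] at hnorm ⊢ <;> interval_cases D.d <;> omega
  have h3 : ∑ χ ∈ XE, D.a χ ^ 2 = 3 := by
    rcases hd with e | e <;> rcases D.sign with e' | e' <;> rw [e, e'] at hnorm <;> linarith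
  have ha : ∀ χ ∈ XE, D.a χ = 1 ∨ D.a χ = -1 := by
    intro χ hχ
    have hle := single_le_sum (f := fun χ => D.a χ ^ 2) (fun χ _ => sq_nonneg _) hχ
    have hne0 := D.a_ne χ (D.X.toFinite.mem_toFinset.1 (mem_of_mem_erase hχ))
    rw [h3] at hle
    have hlo : -1 ≤ D.a χ := by nlinarith
    have hhi : D.a χ ≤ 1 := by nlinarith
    omega
  have hcX : XE.card = 3 := by
    have := h3
    rw [sum_congr rfl (g := fun _ => (1 : ℤ)) fun χ hχ => by
      rcases ha χ hχ with e | e <;> rw [e] <;> norm_num] at this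
    simp at this
    exact_mod_cast this
  obtain ⟨e, hee, he2⟩ : ∃ e : ℤ, (e = 1 ∨ e = -1) ∧ 2 * D.d - D.δ = -e :=
    ⟨D.δ - 2 * D.d, by rcases hd with a | a <;> rcases D.sign with b | b <;> omega, by ring⟩
  -- the values
  have hconst : (Nat.card D.Y : ℂ) * D.d - D.δ = -(e : ℂ) := by
    rw [hr]; exact_mod_cast he2
  have hXc : ∑ χ ∈ D.X.toFinite.toFinset, (D.a χ : ℂ) ^ 2 = 4 := by
    have := hsumX; rw [h3] at this; exact_mod_cast this
  obtain ⟨η₁, η₂, h12, hYeq⟩ := card_eq_two.1 (show D.Y.toFinite.toFinset.card = 2 by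
    rw [← Nat.card_eq_card_finite_toFinset]; exact hr)
  have hs : (η₁ : G → ℂ) u + (η₂ : G → ℂ) u = -(e : ℂ) := by
    have := h.sum_Y_apply hM hF D h2 hu
    rwa [hYeq, sum_pair h12, hconst] at this
  have ht : (η₁ : G → ℂ) y + (η₂ : G → ℂ) y = -(e : ℂ) := by
    have := h.sum_Y_apply hM hF D h2 hy
    rwa [hYeq, sum_pair h12, hconst] at this
  have hss : (η₁ : G → ℂ) u * (η₁ : G → ℂ) u + (η₂ : G → ℂ) u * (η₂ : G → ℂ) u = 5 := by
    have := h.sum_Y_mul hM hF D h2 hu hu
    rw [hYeq, sum_pair h12, h.block_sum_self hM hF hu, hXc] at this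
    linear_combination this
  have hst : (η₁ : G → ℂ) u * (η₁ : G → ℂ) y + (η₂ : G → ℂ) u * (η₂ : G → ℂ) y = -4 := by
    have := h.sum_Y_mul hM hF D h2 hu hy
    rw [hYeq, sum_pair h12, h.block_sum_ne hM hF hu hy huy, hXc] at this
    linear_combination this
  have heC : (e : ℂ) * e = 1 := by rcases hee with a | a <;> rw [a] <;> norm_num
  obtain ⟨x, hx0, hx, hreg⟩ := h.deg_data hM hF D
  have hval : ∑ η ∈ D.Y.toFinite.toFinset, (η : G → ℂ) u ^ 2 * (η : G → ℂ) y = 2 * (e : ℂ) := by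
    have hq1 : (η₁ : G → ℂ) u ^ 2 = -(e : ℂ) * (η₁ : G → ℂ) u + 2 := by
      linear_combination (1 / 2 : ℂ) * hss + (1 / 2 : ℂ) * ((η₁ : G → ℂ) u - (η₂ : G → ℂ) u + e) * hs -
        (1 / 2 : ℂ) * heC
    have hq2 : (η₂ : G → ℂ) u ^ 2 = -(e : ℂ) * (η₂ : G → ℂ) u + 2 := by
      linear_combination (1 / 2 : ℂ) * hss + (1 / 2 : ℂ) * ((η₂ : G → ℂ) u - (η₁ : G → ℂ) u + e) * hs -
        (1 / 2 : ℂ) * heC
    rw [hYeq, sum_pair h12, hq1, hq2]
    linear_combination -(e : ℂ) * hst + 2 * ht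
  have hcs := h.count_split hM hF D h2 hu hy hx
  rw [hcount, hval] at hcs
  -- congruences
  have hdeg : ∀ χ ∈ XE, (9 : ℤ) ∣ (charDegree (χ : G → ℂ) : ℤ) - D.a χ := fun χ hχ => by
    have := D.dvd χ (D.X.toFinite.mem_toFinset.1 (mem_of_mem_erase hχ))
    rwa [h.card] at this
  have hx9 : (9 : ℤ) ∣ e * x - 4 := by
    have hsum : (9 : ℤ) ∣ ∑ χ ∈ XE, (D.a χ * (charDegree (χ : G → ℂ) : ℤ) - 1) :=
      dvd_sum fun χ hχ => by
        have := (hdeg χ hχ).mul_left (D.a χ)
        rcases ha χ hχ with a | a <;> rw [a] at this ⊢ <;> omega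
    rw [sum_sub_distrib, sum_const, hcX] at hsum
    rw [hr, ← hXE] at hreg
    push_cast at hreg
    rw [show e * (x : ℤ) - 4 = ∑ χ ∈ XE, D.a χ * (charDegree (χ : G → ℂ) : ℤ) - 3 by
      linear_combination -hreg + (x : ℤ) * he2]
    simpa using hsum
  -- the bound
  set T : ℝ := 1 + ∑ χ ∈ XE, (D.a χ : ℝ) ^ 3 / (charDegree (χ : G → ℂ) : ℝ) + 2 * (e : ℝ) / x
    with hT
  have hGT : (2 : ℝ) = (Nat.card G : ℝ) / 81 * T := by
    apply Complex.ofReal_injective
    rw [hT, hXE]
    push_cast at hcs ⊢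
    exact hcs
  have hTlo : 9 / 40 ≤ T := by
    have hterm : ∀ χ ∈ XE, -(1 / 8 : ℝ) ≤ (D.a χ : ℝ) ^ 3 / (charDegree (χ : G → ℂ) : ℝ) := by
      intro χ hχ
      rcases ha χ hχ with a | a <;> rw [a]
      · refine le_trans (by norm_num) (show (0 : ℝ) ≤ _ by positivity)
      · have h8 : 8 ≤ charDegree (χ : G → ℂ) := by
          have := hdeg χ hχ
          rw [a] at this
          have := (charDegree_spec χ).2.1
          omega
        have h8' : (8 : ℝ) ≤ (charDegree (χ : G → ℂ) : ℝ) := by exact_mod_cast h8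
        push_cast
        rw [show ((-1 : ℝ)) ^ 3 = -1 by norm_num, neg_div]
        exact neg_le_neg (div_le_div_of_nonneg_left (by norm_num) (by norm_num) h8')
    have hs3 := card_nsmul_le_sum XE _ _ hterm
    rw [hcX] at hs3
    have hlast : -(2 / 5 : ℝ) ≤ 2 * (e : ℝ) / x := by
      rcases hee with a | a <;> rw [a]
      · refine le_trans (by norm_num) (show (0 : ℝ) ≤ _ by positivity)
      · have h5 : 5 ≤ x := by rw [a] at hx9; omega
        have h5' : (5 : ℝ) ≤ (x : ℝ) := by exact_mod_cast h5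
        push_cast
        rw [show (2 : ℝ) * -1 = -2 by norm_num, neg_div]
        exact neg_le_neg (div_le_div_of_nonneg_left (by norm_num) (by norm_num) h5')
    norm_num at hs3
    rw [hT]
    linarith
  have hfin : (Nat.card G : ℝ) ≤ 720 := by nlinarith [(Nat.cast_nonneg (Nat.card G) : (0 : ℝ) ≤ _)]
  exact_mod_cast hfin

/-- A normalizer of index two is impossible in a simple group. -/
theorem SelfCentNine.false_of_two [IsSimpleGroup G] (hnc : ∃ a b : G, a * b ≠ b * a)
    (h2' : nineIndex P = 2) : False := by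
  classical
  haveI := h.comm
  letI : CommGroup (P : Subgroup G) := { mul_comm := mul_comm' }
  have hF : IsFrobSylow P 2 := h2' ▸ h.isFrobSylow
  have h2 : 2 ∣ nineIndex P := by rw [h2']
  obtain ⟨D⟩ := exists_excData hF hM (by norm_num) (by rw [h.card]; norm_num)
  have hr : Nat.card D.Y = 4 := by
    have := D.card_Y
    rw [h.card] at this
    omega
  obtain ⟨α, hα, hα1, hαi⟩ := h.exists_inversion h2
  have haut : ∀ β ∈ autP P, β = 1 ∨ β = α := by
    intro β hβ
    by_contra hne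
    push Not at hne
    obtain ⟨w, -, hw⟩ := (Nat.card_eq_two_iff' (1 : autP P)).1 (card_autP hF)
    have e1 := hw ⟨β, hβ⟩ fun e => hne.1 (congrArg Subtype.val e)
    have e2 := hw ⟨α, hα⟩ fun e => hα1 (congrArg Subtype.val e)
    exact hne.2 (congrArg Subtype.val (e1.trans e2.symm))
  obtain ⟨u, hu, -, -⟩ := h.exists_notMem_zpowers (1 : (P : Subgroup G))
  obtain ⟨y, hy, hyu, hyu'⟩ := h.exists_notMem_zpowers u
  have horb : ∀ w : (P : Subgroup G), IsConj (u : G) w ↔ w = u ∨ w = u⁻¹ := by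
    intro w
    rw [isConj_iff_autP hF]
    constructor
    · rintro ⟨β, hβ, rfl⟩
      rcases haut β hβ with rfl | rfl
      · exact Or.inl rfl
      · exact Or.inr (hαi u)
    · rintro (rfl | rfl)
      · exact ⟨1, one_mem _, rfl⟩
      · exact ⟨α, hα, hαi u⟩
  have huy : ¬ IsConj (u : G) y := by rw [horb]; push Not; exact ⟨hyu, hyu'⟩
  have hsq : u * u = u⁻¹ := eq_inv_of_mul_eq_one_left (by
    rw [← pow_three']; exact h.pow_three_eq u)
  have hcount : (univ.filter fun z => IsConj (u : G) z ∧ IsConj (u : G) (z * y)).card = 0 := by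
    rw [card_eq_zero, filter_eq_empty_iff]
    rintro z - ⟨hz, hzy⟩
    have hzP := h.mem_of_triangle u.2 (fun e => hu (Subtype.ext e)) y.2 (fun e => hy (Subtype.ext e))
      huy hz hzy
    have hz' := (horb ⟨z, hzP⟩).1 hz
    have hzy' := (horb (⟨z, hzP⟩ * y)).1 hzy
    rcases hz' with e | e <;> rw [e] at hzy' <;> rcases hzy' with e' | e'
    · exact hy (mul_eq_left.1 e')
    · rw [← hsq] at e'
      exact hyu (mul_left_cancel e')
    · rw [inv_mul_eq_iff_eq_mul, hsq] at e'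
      exact hyu' e'
    · exact hy (mul_eq_left.1 e')
  set XE := D.X.toFinite.toFinset.erase (trivIrr G) with hXE
  have hsumX : ∑ χ ∈ D.X.toFinite.toFinset, D.a χ ^ 2 = 1 + ∑ χ ∈ XE, D.a χ ^ 2 := by
    rw [← add_sum_erase _ _ (D.X.toFinite.mem_toFinset.2 D.triv), D.a_triv, one_pow]
  have hnorm := D.norm
  rw [hr, finsum_mem_eq_finite_toFinset_sum _ D.X.toFinite, hsumX] at hnorm
  push_cast at hnorm
  have hnn : 0 ≤ ∑ χ ∈ XE, D.a χ ^ 2 := sum_nonneg fun χ _ => sq_nonneg _
  have hd : D.d = 0 := by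
    have hlo : -1 ≤ D.d := by rcases D.sign with e | e <;> rw [e] at hnorm <;> nlinarith
    have hhi : D.d ≤ 1 := by rcases D.sign with e | e <;> rw [e] at hnorm <;> nlinarith
    rcases D.sign with e | e <;> rw [e] at hnorm <;> interval_cases D.d <;> omega
  have h1 : ∑ χ ∈ XE, D.a χ ^ 2 = 1 := by
    rcases D.sign with e' | e' <;> rw [hd, e'] at hnorm <;> linarith
  have ha : ∀ χ ∈ XE, D.a χ = 1 ∨ D.a χ = -1 := by
    intro χ hχ
    have hle := single_le_sum (f := fun χ => D.a χ ^ 2) (fun χ _ => sq_nonneg _) hχ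
    have hne0 := D.a_ne χ (D.X.toFinite.mem_toFinset.1 (mem_of_mem_erase hχ))
    rw [h1] at hle
    have hlo : -1 ≤ D.a χ := by nlinarith
    have hhi : D.a χ ≤ 1 := by nlinarith
    omega
  obtain ⟨χ₁, hχ₁⟩ := card_eq_one.1 (show XE.card = 1 by
    have := h1
    rw [sum_congr rfl (g := fun _ => (1 : ℤ)) fun χ hχ => by
      rcases ha χ hχ with e | e <;> rw [e] <;> norm_num] at this
    simp at this
    exact_mod_cast this)
  have hχm : χ₁ ∈ XE := by rw [hχ₁]; exact Finset.mem_singleton_self _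
  set δ := D.δ with hδ
  have hδC : (δ : ℂ) * δ = 1 := by rcases D.sign with a | a <;> rw [hδ, a] <;> norm_num
  have hXc : ∑ χ ∈ D.X.toFinite.toFinset, (D.a χ : ℂ) ^ 2 = 2 := by
    have := hsumX; rw [h1] at this; exact_mod_cast this
  have hconst : (Nat.card D.Y : ℂ) * D.d - D.δ = -(δ : ℂ) := by rw [hd, hδ]; simp
  have hsquare : ∀ η ∈ D.Y, (η : G → ℂ) u ^ 2 = (δ : ℂ) * (η : G → ℂ) u + 2 := by
    intro η hη
    obtain ⟨ψ, hψ, rfl⟩ := D.ζ_surj η hη
    have hinvψ : ψ.comp α.toMonoidHom = ψ⁻¹ := MonoidHom.ext fun w => by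
      show ψ (α w) = (ψ w)⁻¹
      rw [hαi w, map_inv]
    have hset : {ψ' | NRel P ψ ψ'} = ({ψ, ψ⁻¹} : Set ((P : Subgroup G) →* ℂˣ)) := by
      ext ψ'
      simp only [Set.mem_ofPred_eq, Set.mem_insert_iff, Set.mem_singleton_iff]
      constructor
      · rintro ⟨β, hβ, rfl⟩
        rcases haut β hβ with rfl | rfl
        · exact Or.inl rfl
        · right
          ext w
          simp [hαi]
      · rintro (rfl | rfl)
        · exact nRel_refl P _
        · exact nRel_symm hF ⟨α, hα, hinvψ⟩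
    have hne : ψ ≠ ψ⁻¹ := fun e => hψ (MonoidHom.ext fun w => by
      have e1 : ψ w * ψ w = 1 := by
        nth_rewrite 1 [e]
        rw [MonoidHom.inv_apply, inv_mul_cancel]
      have e3 : ψ w * ψ w * ψ w = 1 := by
        rw [← map_mul, ← map_mul, ← pow_three', h.pow_three_eq, map_one]
      rwa [e1, one_mul] at e3)
    rw [D.val_Y ψ hψ (u : G) u (isPPart_self hF hM u.2) (fun e => hu (Subtype.ext e)), hset,
      finsum_mem_pair hne, hd]
    have hz : ((ψ u : ℂˣ) : ℂ) ^ 3 = 1 := by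
      rw [← Units.val_pow_eq_pow_val, ← map_pow, h.pow_three_eq, map_one, Units.val_one]
    rw [MonoidHom.inv_apply, Units.val_inv_eq_inv_val]
    have hz0 : ((ψ u : ℂˣ) : ℂ) ≠ 0 := Units.ne_zero _
    have hzi : ((ψ u : ℂˣ) : ℂ)⁻¹ = ((ψ u : ℂˣ) : ℂ) ^ 2 := by
      rw [inv_eq_of_mul_eq_one_right]; rw [← hz]; ring
    rw [hzi, ← hδ]
    push_cast
    linear_combination (2 * (δ : ℂ) * δ + (δ : ℂ) * δ * (ψ u : ℂˣ)) * hz + 2 * hδC
  have hst : ∑ η ∈ D.Y.toFinite.toFinset, (η : G → ℂ) u * (η : G → ℂ) y = -2 := by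
    rw [h.sum_Y_mul hM hF D h2 hu hy, h.block_sum_ne hM hF hu hy huy, hXc]; ring
  have ht : ∑ η ∈ D.Y.toFinite.toFinset, (η : G → ℂ) y = -(δ : ℂ) := by
    rw [h.sum_Y_apply hM hF D h2 hy, hconst]
  have hval : ∑ η ∈ D.Y.toFinite.toFinset, (η : G → ℂ) u ^ 2 * (η : G → ℂ) y = -4 * (δ : ℂ) := by
    rw [sum_congr rfl (g := fun η : IrrCharacter G => (δ : ℂ) * ((η : G → ℂ) u * (η : G → ℂ) y) +
      2 * (η : G → ℂ) y) fun η hη => by rw [hsquare η (D.Y.toFinite.mem_toFinset.1 hη)]; ring,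
      sum_add_distrib, ← mul_sum, ← mul_sum, hst, ht]
    ring
  obtain ⟨x, hx0, hx, hreg⟩ := h.deg_data hM hF D
  have hcs := h.count_split hM hF D h2 hu hy hx
  rw [hcount, hval, ← hXE, hχ₁, sum_singleton] at hcs
  rw [← hXE, hχ₁, sum_singleton, hd, ← hδ] at hreg
  set n := charDegree (χ₁ : G → ℂ) with hn
  have hn0 : 0 < n := (charDegree_spec χ₁).2.1
  set a := D.a χ₁ with hadef
  have ha1 : a = 1 ∨ a = -1 := ha χ₁ hχm
  have hpoly : (x : ℤ) * n + a * x - 4 * δ * n = 0 := by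
    have hx' : (x : ℂ) ≠ 0 := Nat.cast_ne_zero.2 hx0.ne'
    have hn' : (n : ℂ) ≠ 0 := Nat.cast_ne_zero.2 hn0.ne'
    have hG : (Nat.card G : ℂ) / 81 ≠ 0 := div_ne_zero (Nat.cast_ne_zero.2 Nat.card_pos.ne') (by norm_num)
    have e := (mul_eq_zero.1 (hcs.symm.trans Nat.cast_zero)).resolve_left hG
    have e3 : (a : ℂ) ^ 3 = a := by rcases ha1 with r | r <;> rw [r] <;> norm_num
    rw [e3] at e
    field_simp at e
    apply Int.cast_injective (α := ℂ)
    push_cast
    linear_combination e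
  have hδx : (x : ℤ) = δ * (1 + a * n) := by
    rcases D.sign with r | r <;> rw [← hδ] at r <;> rw [r] at hreg ⊢ <;> push_cast at hreg <;> linarith
  have hz : ((n : ℤ) - a) ^ 2 = 0 := by
    rw [hδx] at hpoly
    rcases D.sign with r | r <;> rw [← hδ] at r <;> rw [r] at hpoly <;> rcases ha1 with r' | r' <;>
      rw [r'] at hpoly ⊢ <;> linear_combination (norm := ring_nf) hpoly
    all_goals nlinarith
  have hna : (n : ℤ) = a := sub_eq_zero.1 (pow_eq_zero_iff two_ne_zero |>.1 hz)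
  have hn1 : n = 1 := by rcases ha1 with r | r <;> omega
  refine (mem_erase.1 hχm).1 (CfsgLib.CharDegreesTheory.SmallDegrees.eq_trivIrr_of_linear hnc χ₁ ?_)
  rw [(charDegree_spec χ₁).1, ← hn, hn1, Nat.cast_one]

end CfsgLib.PermGroups
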