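import Cfsg.Agent.Lib.PermGroups.RegularExceptional
import Cfsg.Agent.Lib.SL2.Card
import Mathlib.GroupTheory.NoncommCoprod

/-!
The insoluble linear groups regular on the non-zero vectors.
-/

set_option autoImplicit false
set_option linter.style.haveILetI false
set_option linter.unusedSectionVars false

open scoped MatrixGroups

namespace CfsgLib.PermGroups.Regular

variable {p : ℕ} {V : Type*} [AddCommGroup V] [Module (ZMod p) V] [Fact p.Prime] [Finite V]
  {H : Subgroup (V ≃ₗ[ZMod p] V)}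
  (hreg : ∀ v w : V, v ≠ 0 → w ≠ 0 → ∃! h : H, (h : V ≃ₗ[ZMod p] V) v = w)

include hreg

theorem noIrredCyclic_of_not_solvable [Nontrivial V] (hsolv : ¬ Group.IsSolvable H) :
    NoIrredCyclic H := by
  intro A hA hcyc
  by_contra h
  push Not at h
  refine hsolv (isSolvable_of_irred_abelian hreg hA ?_ fun W hW => ?_)
  · refine IsMulCommutative.of_comm fun a b => ?_
    letI := hcyc.commGroup
    exact mul_comm a b
  · by_contra hne
    push Not at hne
    obtain ⟨a, ha, v, hv, hna⟩ := h W hne.1 hne.2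
    exact hna (hW a ha v hv)

/-- The numerical data of the `SL(2,5)` case. -/
theorem sl_two_five_data [Nontrivial V] {N : Subgroup H} (hN : N.Normal)
    (hna : ¬ IsMulCommutative N) (e : N ≃* SL(2, ZMod 5)) :
    Nat.card V = Nat.card (commutant N) ^ 2 := by
  obtain ⟨hY3, hW3, hY1, hW1, -, -, -⟩ := slGen_facts
  set y := e.symm slGenY with hy
  set w := e.symm slGenW with hw
  have hthree : ∀ g : SL(2, ZMod 5), g ^ 3 = 1 → g ≠ 1 →
      endHom H ((e.symm g : N) : H) * endHom H ((e.symm g : N) : H) +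
        endHom H ((e.symm g : N) : H) + 1 = 0 := fun g hg hg1 =>
    fpf_order_three (endHom H) (endHom_fpf hreg)
      (by rw [← SubgroupClass.coe_pow, ← map_pow, hg, map_one]; rfl)
      (fun h => hg1 ((map_eq_one_iff _ e.symm.injective).1 (Subtype.ext h)))
  have hgen : N ≤ Subgroup.closure {(y : H), (w : H)} := by
    intro n hn
    have h1 : e ⟨n, hn⟩ ∈ Subgroup.closure ({slGenY, slGenW} : Set SL(2, ZMod 5)) := by
      rw [closure_slGen]; exact Subgroup.mem_top _
    have h2 := Subgroup.mem_map_of_mem (N.subtype.comp e.symm.toMonoidHom) h1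
    rw [MonoidHom.map_closure, Set.image_insert_eq, Set.image_singleton] at h2
    simpa using h2
  set Y := endHom H (y : H) with hYdef
  set W := endHom H (w : H) with hWdef
  have hY : Y * Y + Y + 1 = 0 := hthree _ hY3 hY1
  have hW : W * W + W + 1 = 0 := hthree _ hW3 hW1
  have hm1 : (-1 : Module.End (ZMod p) V) ∈ commutant N :=
    Subalgebra.neg_mem _ (Subalgebra.one_mem _)
  -- the symmetrised product lies in the commutant
  set c := W * Y + Y * W + Y + W with hc
  have hcY : Y * c = c * Y := by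
    rw [← sub_eq_zero]
    calc Y * c - c * Y = (Y * Y + Y + 1) * W - W * (Y * Y + Y + 1) := by rw [hc]; noncomm_ring
      _ = 0 := by rw [hY]; simp
  have hcW : W * c = c * W := by
    rw [← sub_eq_zero]
    calc W * c - c * W = (W * W + W + 1) * Y - Y * (W * W + W + 1) := by rw [hc]; noncomm_ring
      _ = 0 := by rw [hW]; simp
  have hcmem : c ∈ commutant N := by
    refine Subalgebra.mem_centralizer_iff (R := ZMod p) |>.2 ?_
    rintro _ ⟨g, hg, rfl⟩
    have hcl := hgen hg
    clear hg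
    induction hcl using Subgroup.closure_induction with
    | mem u hu =>
      rcases hu with rfl | rfl
      exacts [hcY, hcW]
    | one => rw [map_one, one_mul, mul_one]
    | mul a b _ _ ha hb => rw [map_mul, mul_assoc, hb, ← mul_assoc, ha, mul_assoc]
    | inv a _ ha =>
      have h1 : endHom H a⁻¹ * endHom H a = 1 := by rw [← map_mul, inv_mul_cancel, map_one]
      have h2 : endHom H a * endHom H a⁻¹ = 1 := by rw [← map_mul, mul_inv_cancel, map_one]
      calc endHom H a⁻¹ * c = endHom H a⁻¹ * (c * endHom H a) * endHom H a⁻¹ := by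
            rw [mul_assoc _ _ (endHom H a⁻¹), mul_assoc c, h2, mul_one]
        _ = c * endHom H a⁻¹ := by rw [← ha, ← mul_assoc, h1, one_mul]
  refine natCard_eq_sq hreg hN hna y.2 w.2 hgen ⟨-1, hm1, -1, hm1, ?_⟩ ⟨-1, hm1, -1, hm1, ?_⟩
    ⟨c, hcmem, -1, hm1, -1, hm1, -1, hm1, ?_⟩
  · linear_combination (norm := noncomm_ring) hY
  · linear_combination (norm := noncomm_ring) hW
  · rw [hc]; noncomm_ring

end CfsgLib.PermGroups.Regular

namespace CfsgLib.PermGroups.Regular

variable {p : ℕ} {V : Type*} [AddCommGroup V] [Module (ZMod p) V] [Fact p.Prime] [Finite V]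
  {H : Subgroup (V ≃ₗ[ZMod p] V)}
  (hreg : ∀ v w : V, v ≠ 0 → w ≠ 0 → ∃! h : H, (h : V ≃ₗ[ZMod p] V) v = w)

include hreg

theorem insoluble_arith : ∀ q ∈ Finset.range 120, ∀ m ∈ [60, 120], 1 < q → q + 1 ∣ m →
    120 ∣ q ^ 2 - 1 → 2 ∣ (q ^ 2 - 1) / m →
    (q = 119) ∨ (m = 60 ∧ (q = 19 ∨ (q = 11 ∧ (q ^ 2 - 1) / m = 2) ∨
      (q = 29 ∧ (q ^ 2 - 1) / m = 14) ∨ (q = 59 ∧ (q ^ 2 - 1) / m = 58))) := by
  decide +kernel

/-- The action on five points of a group with a normal `SL(2,5)`. -/
theorem exists_five_action_of_normal [Nontrivial V] {N : Subgroup H} [N.Normal]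
    (e : N ≃* SL(2, ZMod 5)) :
    ∃ (z : N) (ψ : H →* Equiv.Perm (Fin 5)), z ≠ 1 ∧ z * z = 1 ∧ (∀ n, n * z = z * n) ∧
      ψ.ker = Subgroup.centralizer (N : Set H) ∧ (∀ n : N, ψ n = 1 ↔ (n = 1 ∨ n = z)) ∧
      ∀ x ∈ alternatingGroup (Fin 5), ∃ n : N, ψ n = x := by
  classical
  haveI : Fact (Nat.Prime 5) := ⟨Nat.prime_five⟩
  haveI : Nontrivial N := ⟨⟨e.symm slGenY, 1, fun h =>
    slGen_facts.2.2.1 ((map_eq_one_iff _ e.symm.injective).1 h)⟩⟩
  have hperf : commutator N = ⊤ := by
    have h : commutator SL(2, ZMod 5) = ⊤ := CfsgLib.ClassicalLinear.commutator_sl_eq_top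
      (Or.inr ⟨(2 : ZMod 5), two_facts_five.1, two_facts_five.2⟩)
    have h2 := congrArg (Subgroup.map e.symm.toMonoidHom) h
    rwa [commutator_def, Subgroup.map_commutator,
      Subgroup.map_top_of_surjective _ e.symm.surjective] at h2
  let φ : N →* MulAut (Multiplicative V) :=
    { toFun := fun g => AddEquiv.toMultiplicative ((g : H) : V ≃ₗ[ZMod p] V).toAddEquiv
      map_one' := MulEquiv.ext fun v => rfl
      map_mul' := fun a b => MulEquiv.ext fun v => rfl }
  obtain ⟨z, π, hz1, hz2, hzc, hπ, hr⟩ := exists_five_hom_of_fpf_perfect φ (fun g hg v hv =>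
    (congrArg Multiplicative.ofAdd (endHom_fpf hreg (g : H) (fun h' => hg (Subtype.ext h'))
      (Multiplicative.toAdd v) (congrArg Multiplicative.toAdd hv)) :)) hperf
  have hz4 : z ^ 4 = 1 := by
    rw [show z ^ 4 = (z * z) * (z * z) by simp [pow_succ, mul_assoc], hz2, one_mul]
  have hinv : ∀ n : N, n * n = 1 → n ≠ 1 → n = z := by
    intro n hn hn1
    refine Subtype.ext (fpf_involution_unique (endHom H) (endHom_fpf hreg) ?_ ?_ ?_ ?_)
    · rw [← Subgroup.coe_mul, hn]; rfl
    · exact fun h => hn1 (Subtype.ext h)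
    · rw [← Subgroup.coe_mul, hz2]; rfl
    · exact fun h => hz1 (Subtype.ext h)
  have hker : ∀ (g : H) (n : N), π n = 1 → π (MulAut.conjNormal g n) = 1 := by
    intro g n hn
    rw [hπ] at hn ⊢
    rcases hn with rfl | rfl
    · exact Or.inl (map_one _)
    · exact Or.inr (hinv _ (by rw [← map_mul, hz2, map_one])
        (fun h => hz1 ((map_eq_one_iff _ (MulAut.conjNormal g).injective).1 h)))
  have hinj : ∀ a b : N, a ^ 3 = 1 → b ^ 3 = 1 → π a = π b → a = b := by
    intro a b ha hb h
    have h1 : π (a * b⁻¹) = 1 := by rw [map_mul, h, ← map_mul, mul_inv_cancel, map_one]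
    rcases (hπ _).1 h1 with e' | e'
    · exact mul_inv_eq_one.1 e'
    · exfalso
      rw [mul_inv_eq_iff_eq_mul] at e'
      rw [e', Commute.mul_pow (hzc b).symm, hb, mul_one,
        show z ^ 3 = z * z * z by simp [pow_succ], hz2, one_mul] at ha
      exact hz1 ha
  have hsurj : ∀ x ∈ Perm5.L5, ∃ u : N, u ^ 3 = 1 ∧ π u = x := by
    intro x hx
    obtain ⟨hx1, hx3⟩ := Perm5.L5_isThreeCycle x hx
    have hxA : x ∈ alternatingGroup (Fin 5) := by
      rw [Equiv.Perm.mem_alternatingGroup]
      have h3 : Equiv.Perm.sign x ^ 3 = 1 := by rw [← map_pow, hx3, map_one]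
      rcases Int.units_eq_one_or (Equiv.Perm.sign x) with h | h
      · exact h
      · rw [h] at h3; exact absurd h3 (by decide)
    obtain ⟨u, rfl⟩ := hr.ge hxA
    refine ⟨u ^ 4, ?_, by rw [map_pow, pow_succ, hx3, one_mul]⟩
    rw [← map_pow] at hx3
    rw [← pow_mul, show 4 * 3 = 3 * 4 from rfl, pow_mul]
    rcases (hπ _).1 hx3 with e' | e' <;> rw [e']
    · rw [one_pow]
    · exact hz4
  have hgen : Subgroup.closure {a : N | a ^ 3 = 1} = ⊤ := by
    rw [eq_top_iff]
    intro n _
    have h1 : e n ∈ Subgroup.closure ({slGenY, slGenW} : Set SL(2, ZMod 5)) := by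
      rw [closure_slGen]; exact Subgroup.mem_top _
    have h2 := Subgroup.mem_map_of_mem e.symm.toMonoidHom h1
    rw [MonoidHom.map_closure, MulEquiv.coe_toMonoidHom, e.symm_apply_apply] at h2
    refine Subgroup.closure_mono ?_ h2
    rintro _ ⟨g, hg, rfl⟩
    show (e.symm g) ^ 3 = 1
    rcases hg with rfl | rfl
    · rw [← map_pow, slGen_facts.1, map_one]
    · rw [← map_pow, slGen_facts.2.1, map_one]
  obtain ⟨ψ, hψN, hψ⟩ := exists_five_action π hker hinj hsurj hgen
  refine ⟨z, ψ, hz1, hz2, hzc, hψ, fun n => by rw [hψN]; exact hπ n, fun x hx => ?_⟩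
  obtain ⟨n, rfl⟩ := hr.ge hx
  exact ⟨n, hψN n⟩

theorem insoluble_structure [Nontrivial V] (hsolv : ¬ Group.IsSolvable H) :
    (Nat.card V = 121 ∧ Nonempty (H ≃* SL(2, ZMod 5))) ∨
    (Nat.card V = 841 ∧ Nonempty (H ≃* SL(2, ZMod 5) × Multiplicative (ZMod 7))) ∨
    (Nat.card V = 3481 ∧ Nonempty (H ≃* SL(2, ZMod 5) × Multiplicative (ZMod 29))) := by
  classical
  haveI : Fact (Nat.Prime 5) := ⟨Nat.prime_five⟩
  have hI := noIrredCyclic_of_not_solvable hreg hsolv
  obtain ⟨A, N, hA, hc, hmax, hN, hle, hna, hmin⟩ := exists_A_N hreg hI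
  haveI := hN
  haveI := hA
  have hcen := centralizer_eq hreg hA hc hmax hN hle hna
  have hirr := irred_of_nonabelian hreg hN hna
  obtain ⟨e⟩ : Nonempty (N ≃* SL(2, ZMod 5)) := by
    refine (quaternion_or_sl_two_five hreg hA hc hmax hN hle hna hmin).resolve_left ?_
    rintro ⟨e⟩
    obtain ⟨P, hP, hPperf⟩ := exists_perfect_subgroup hsolv
    apply hP
    let f : P →* MulAut (QuaternionGroup 2) :=
      ((MulAut.congr e).toMonoidHom.comp MulAut.conjNormal).comp P.subtype
    have hf := hom_mulAut_q8_eq_one hPperf f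
    have hPA : P ≤ A := by
      intro g hg
      rw [← hcen, Subgroup.mem_centralizer_iff]
      intro n hn
      have h0 := DFunLike.congr_fun hf ⟨g, hg⟩
      simp only [f, MonoidHom.comp_apply, MonoidHom.one_apply, MulEquiv.coe_toMonoidHom,
        Subgroup.coe_subtype] at h0
      have h1 := (map_eq_one_iff (MulAut.congr e) (MulAut.congr e).injective).1 h0
      have h2 := congrArg Subtype.val (MulEquiv.congr_fun h1 ⟨n, hn⟩)
      rw [MulAut.conjNormal_apply, MulAut.one_apply] at h2
      exact (mul_inv_eq_iff_eq_mul.1 h2).symm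
    exact Group.isSolvable_of_comm fun a b => Subtype.ext (by
      rw [Subgroup.coe_mul, Subgroup.coe_mul]
      exact congrArg Subtype.val (hc.is_comm.comm (⟨a, hPA a.2⟩ : A) ⟨b, hPA b.2⟩))
  have hV := sl_two_five_data hreg hN hna e
  obtain ⟨z, ψ, hz1, hz2, hzc, hψ, hπ, hsurjA⟩ := exists_five_action_of_normal hreg e
  obtain ⟨q, m, ⟨j, hj⟩, hq1, hVq, hAdvd, hH, hm, hAm, hdvd⟩ :=
    card_facts hreg hcen hirr hV ψ hψ
  have hA5 : Nat.card (alternatingGroup (Fin 5)) = 60 := by
    have h := two_mul_nat_card_alternatingGroup (α := Fin 5)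
    rw [Nat.card_perm, Nat.card_eq_fintype_card (α := Fin 5), Fintype.card_fin,
      show Nat.factorial 5 = 120 from rfl] at h
    omega
  have hAle : alternatingGroup (Fin 5) ≤ ψ.range := fun x hx => by
    obtain ⟨n, hn⟩ := hsurjA x hx
    exact ⟨_, hn⟩
  have hmc : m = 60 ∨ m = 120 := by
    have h1 : 60 ∣ m := hm ▸ hA5 ▸ Subgroup.card_dvd_of_le hAle
    have h2 : m ∣ 120 := by
      have := ψ.range.card_subgroup_dvd_card
      rwa [Nat.card_perm, Nat.card_eq_fintype_card (α := Fin 5), Fintype.card_fin,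
        show Nat.factorial 5 = 120 from rfl, ← hm] at this
    obtain ⟨d, rfl⟩ := h1
    have := Nat.le_of_dvd (by norm_num) h2
    have hd2 : d ≤ 2 := by omega
    interval_cases d <;> omega
  have hN120 : Nat.card N = 120 := by
    rw [Nat.card_congr e.toEquiv, CfsgLib.SL2.card_SL, Nat.card_eq_fintype_card, ZMod.card]
    norm_num
  have h120 : 120 ∣ q ^ 2 - 1 := hN120 ▸ hH ▸ N.card_subgroup_dvd_card
  have hzA : (z : H) ∈ A := by
    rw [← hcen, Subgroup.mem_centralizer_iff]
    intro n hn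
    exact congrArg Subtype.val (hzc ⟨n, hn⟩)
  have hzH : (z : H) * z = 1 ∧ (z : H) ≠ 1 :=
    ⟨by rw [← Subgroup.coe_mul, hz2]; rfl, fun h => hz1 (Subtype.ext h)⟩
  have hA2 : 2 ∣ Nat.card A := by
    haveI : Fact (Nat.Prime 2) := ⟨Nat.prime_two⟩
    have h : orderOf (⟨z, hzA⟩ : A) = 2 :=
      orderOf_eq_prime (Subtype.ext (by rw [SubgroupClass.coe_pow, pow_two]; exact hzH.1))
        fun h => hzH.2 (congrArg Subtype.val h)
    exact h ▸ orderOf_dvd_natCard _
  have hAcard : (q ^ 2 - 1) / m = Nat.card A := by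
    rw [← hAm, Nat.mul_div_cancel _ (by omega)]
  have hq120 : q < 120 := by
    have := Nat.le_of_dvd (by omega) hdvd
    omega
  have key := insoluble_arith (p := p) (V := V) (H := H) hreg q (Finset.mem_range.2 hq120) m
    (by simpa using hmc) hq1 hdvd h120 (hAcard.symm ▸ hA2)
  rw [hAcard] at key
  rcases key with rfl | ⟨rfl, hcase⟩
  · exfalso
    have h7 : 7 ∣ p ^ j := hj ▸ by norm_num
    have h17 : 17 ∣ p ^ j := hj ▸ by norm_num
    have e7 := (Nat.prime_dvd_prime_iff_eq (by norm_num) Fact.out).1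
      ((by norm_num : Nat.Prime 7).dvd_of_dvd_pow h7)
    have e17 := (Nat.prime_dvd_prime_iff_eq (by norm_num) Fact.out).1
      ((by norm_num : Nat.Prime 17).dvd_of_dvd_pow h17)
    omega
  have hrange : ψ.range = alternatingGroup (Fin 5) :=
    (Subgroup.eq_of_le_of_card_ge hAle (by rw [hA5, ← hm])).symm
  have hcomm : ∀ a ∈ A, ∀ n : N, a * (n : H) = n * a := fun a ha n => by
    rw [← hcen] at ha
    exact (Subgroup.mem_centralizer_iff.1 ha n n.2).symm
  rcases hcase with rfl | ⟨rfl, hA'⟩ | ⟨rfl, hA'⟩ | ⟨rfl, hA'⟩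
  · -- an element of order three outside
    exfalso
    have h6 : Nat.card A = 6 := by
      have h := hAm; norm_num at h; omega
    haveI : Fact (Nat.Prime 3) := ⟨Nat.prime_three⟩
    obtain ⟨a, ha⟩ := exists_prime_orderOf_dvd_card' (G := A) 3 (by rw [h6]; norm_num)
    have ha1 : (a : H) ≠ 1 := fun h => by
      rw [show a = 1 from Subtype.ext h, orderOf_one] at ha; norm_num at ha
    have ha3 : (a : H) ^ 3 = 1 := by
      rw [← SubgroupClass.coe_pow, ← ha, pow_orderOf_eq_one]; rfl
    obtain ⟨hY3, hW3, hY1, hW1, hYW, -, -⟩ := slGen_facts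
    apply hYW
    apply e.symm.injective
    rw [map_mul, map_mul]
    have hy3 : ((e.symm slGenY : N) : H) ^ 3 = 1 := by
      rw [← SubgroupClass.coe_pow, ← map_pow, hY3, map_one]; rfl
    have hy1 : ((e.symm slGenY : N) : H) ≠ 1 := fun h =>
      hY1 ((map_eq_one_iff _ e.symm.injective).1 (Subtype.ext h))
    have hw := hcomm a a.2 (e.symm slGenW)
    rcases fpf_comm_three (endHom H) (endHom_fpf hreg) ha3 ha1 hy3 hy1
      (hcomm a a.2 (e.symm slGenY)) with h | h
    · rw [h] at hw; exact Subtype.ext hw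
    · rw [h] at hw
      apply Subtype.ext
      rw [Subgroup.coe_mul, Subgroup.coe_mul]
      calc ((e.symm slGenY : N) : H) * (e.symm slGenW : N)
          = (e.symm slGenY : N) * ((e.symm slGenW : N) * ((e.symm slGenY : N) : H)⁻¹) *
              (e.symm slGenY : N) := by group
        _ = _ := by rw [← hw]; group
  · -- degree 11²
    refine Or.inl ⟨by rw [hVq]; norm_num, ⟨?_⟩⟩
    have hNtop : N = ⊤ := Subgroup.eq_top_of_card_eq N (by rw [hN120, hH]; norm_num)
    exact ((MulEquiv.subgroupCongr hNtop).trans Subgroup.topEquiv).symm.trans e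
  all_goals
    obtain ⟨hAcyc, -⟩ := abelian_normal_data hreg hI hA hc
    obtain ⟨a, ha⟩ := hAcyc.exists_generator
    let b : H := ((a : A) : H) ^ 2
    have hbA : b ∈ A := A.pow_mem a.2 2
    have hao : orderOf (a : H) = Nat.card A := by
      rw [Subgroup.orderOf_coe]; exact orderOf_eq_card_of_forall_mem_zpowers ha
    have hbo : orderOf b = Nat.card A / 2 := by
      rw [orderOf_pow, hao, hA']
      rfl
    let B := Subgroup.zpowers b
    have hBA : B ≤ A := Subgroup.zpowers_le.2 hbA
    have hcommNB : ∀ (n : N) (x : B), Commute (N.subtype n) (B.subtype x) := fun n x =>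
      (hcomm _ (hBA x.2) n).symm
    let θ : N × B →* H := MonoidHom.noncommCoprod N.subtype B.subtype hcommNB
    have hθ : Function.Bijective θ := by
      rw [Nat.bijective_iff_injective_and_card]
      refine ⟨(injective_iff_map_eq_one θ).2 ?_, ?_⟩
      · rintro ⟨n, x⟩ hnx
        have hnx' : (n : H) * (x : H) = 1 := hnx
        have hψn : ψ n = 1 := by
          have hψx : ψ (x : H) = 1 := by
            rw [← MonoidHom.mem_ker, hψ, hcen]; exact hBA x.2
          rw [eq_inv_of_mul_eq_one_left hnx', map_inv, hψx, inv_one]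
        have hn : n = 1 := by
          rcases (hπ n).1 hψn with h | h
          · exact h
          exfalso
          have hxz : (x : H) = z := by
            rw [eq_inv_of_mul_eq_one_right hnx', h, inv_eq_of_mul_eq_one_right hzH.1]
          have h2 : orderOf (z : H) = 2 := by
            haveI : Fact (Nat.Prime 2) := ⟨Nat.prime_two⟩
            exact orderOf_eq_prime (by rw [pow_two]; exact hzH.1) hzH.2
          have h3 : orderOf (x : H) ∣ orderOf b := orderOf_dvd_of_mem_zpowers x.2
          rw [hxz, h2, hbo, hA'] at h3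
          norm_num at h3
        subst hn
        rw [OneMemClass.coe_one, one_mul] at hnx'
        exact Prod.ext rfl (Subtype.ext hnx')
      · rw [Nat.card_prod, hN120, Nat.card_zpowers, hbo, hA', hH]
        norm_num
    have hB : Nat.card B = Nat.card A / 2 := by rw [Nat.card_zpowers, hbo]
    rw [hA'] at hB
    norm_num at hB
  · exact Or.inr (Or.inl ⟨by rw [hVq]; norm_num, ⟨(MulEquiv.ofBijective θ hθ).symm.trans
      (e.prodCongr ((zmodCyclicMulEquiv (G := B) inferInstance).symm.trans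
        (AddEquiv.toMultiplicative (ZMod.ringEquivCongr hB).toAddEquiv)))⟩⟩)
  · exact Or.inr (Or.inr ⟨by rw [hVq]; norm_num, ⟨(MulEquiv.ofBijective θ hθ).symm.trans
      (e.prodCongr ((zmodCyclicMulEquiv (G := B) inferInstance).symm.trans
        (AddEquiv.toMultiplicative (ZMod.ringEquivCongr hB).toAddEquiv)))⟩⟩)

end CfsgLib.PermGroups.Regular
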