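import Cfsg.Agent.Lib.PermGroups.TriangleThree
import Cfsg.Agent.Lib.BlockSections.ExceptionalInvolution
import Cfsg.Agent.Lib.BrauerCharacters.ClassMul
import Cfsg.Agent.Lib.Blocks.Knorr
import Cfsg.Agent.Lib.CharDegreesTheory.SmallDegrees

/-!
# Self-centralizing elements of a Sylow 3-subgroup of order nine

The local structure, the class multiplication formula cut down to the principal block, and the
sums over the exceptional family.
-/

set_option autoImplicit false
set_option linter.style.haveILetI false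
set_option linter.unusedSectionVars false

namespace CfsgLib.PermGroups

open Cfsg CfsgLib.CharTheory CfsgLib.Blocks CfsgLib.BrauerCharacters CfsgLib.BlockSections
open CfsgLib.BlockSections.Exceptional Finset
open scoped ComplexConjugate

variable {G : Type*} [Group G] [Fintype G] [hp : Fact (Nat.Prime 3)]

/-- A Sylow 3-subgroup, elementary abelian of order nine, with self-centralizing elements. -/
structure SelfCentNine (P : Sylow 3 G) : Prop where
  comm : IsMulCommutative (P : Subgroup G)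
  exp : ∀ a ∈ (P : Subgroup G), a ^ 3 = 1
  card : Nat.card (P : Subgroup G) = 9
  cent : ∀ s ∈ (P : Subgroup G), s ≠ 1 → Subgroup.centralizer ({s} : Set G) = (P : Subgroup G)

/-- The order of the automorphism group induced by the normalizer. -/
noncomputable def nineIndex (P : Sylow 3 G) : ℕ :=
  (Subgroup.centralizer ((P : Subgroup G) : Set G)).relIndex
    (Subgroup.normalizer ((P : Subgroup G) : Set G))

variable {P : Sylow 3 G} (h : SelfCentNine P)
include h

theorem SelfCentNine.centralizer_eq :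
    Subgroup.centralizer ((P : Subgroup G) : Set G) = (P : Subgroup G) := by
  haveI := h.comm
  refine le_antisymm ?_ fun x hx => ?_
  · obtain ⟨s, hs⟩ : ∃ s : (P : Subgroup G), s ≠ 1 := by
      haveI : Nontrivial (P : Subgroup G) :=
        Finite.one_lt_card_iff_nontrivial.1 (by rw [h.card]; norm_num)
      exact exists_ne 1
    exact (Subgroup.centralizer_le (Set.singleton_subset_iff.2 s.2)).trans
      (h.cent s s.2 fun e => hs (Subtype.ext e)).le
  · rw [Subgroup.mem_centralizer_iff]
    exact fun w hw => congrArg Subtype.val (mul_comm' (⟨w, hw⟩ : (P : Subgroup G)) ⟨x, hx⟩)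

theorem SelfCentNine.isFrobSylow : IsFrobSylow P (nineIndex P) := by
  refine ⟨h.comm, rfl, fun y hy h1 => ?_⟩
  rw [h.centralizer_eq, h.cent y hy h1, inf_eq_left]
  exact Subgroup.le_normalizer

theorem SelfCentNine.orderOf_eq {x : G} (hx : x ∈ (P : Subgroup G)) (h1 : x ≠ 1) :
    orderOf x = 3 :=
  orderOf_eq_prime (h.exp x hx) h1

theorem SelfCentNine.exists_conj_mem {t : G} (ht : orderOf t = 3) :
    ∃ c : G, c * t * c⁻¹ ∈ (P : Subgroup G) := by
  obtain ⟨Q, hQ⟩ := (IsPGroup.of_card (p := 3) (n := 1) (show Nat.card (Subgroup.zpowers t) = 3 ^ 1 by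
    rw [Nat.card_zpowers, ht, pow_one])).exists_le_sylow
  obtain ⟨c, hc⟩ := MulAction.exists_smul_eq G P Q
  rw [← hc] at hQ
  obtain ⟨w, hwP, hwt⟩ := Subgroup.mem_map.1 (hQ (Subgroup.mem_zpowers t))
  change c * w * c⁻¹ = t at hwt
  refine ⟨c⁻¹, ?_⟩
  rw [← hwt, show c⁻¹ * (c * w * c⁻¹) * c⁻¹⁻¹ = w by group]
  exact hwP

/-- Centralizers of elements of order three are abelian of exponent three. -/
theorem SelfCentNine.cent_three {t : G} (ht : orderOf t = 3) {x : G} (hx : x * t = t * x) :
    x ^ 3 = 1 ∧ ∀ y : G, y * t = t * y → x * y = y * x := by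
  haveI := h.comm
  obtain ⟨c, hc⟩ := h.exists_conj_mem ht
  have h1 : c * t * c⁻¹ ≠ 1 := fun e => by
    rw [show t = c⁻¹ * (c * t * c⁻¹) * c by group, e] at ht
    simp at ht
  have hmem : ∀ z : G, z * t = t * z → c * z * c⁻¹ ∈ (P : Subgroup G) := fun z hz => by
    rw [← h.cent _ hc h1, Subgroup.mem_centralizer_singleton_iff]
    calc c * z * c⁻¹ * (c * t * c⁻¹) = c * (z * t) * c⁻¹ := by group
      _ = c * (t * z) * c⁻¹ := by rw [hz]
      _ = _ := by group
  refine ⟨?_, fun y hy => ?_⟩
  · have h3 := h.exp _ (hmem x hx)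
    rw [conj_pow] at h3
    exact conj_eq_one_iff.1 h3
  · have h2 : (c * x * c⁻¹) * (c * y * c⁻¹) = (c * y * c⁻¹) * (c * x * c⁻¹) := congrArg Subtype.val
      (mul_comm' (⟨_, hmem x hx⟩ : (P : Subgroup G)) ⟨_, hmem y hy⟩)
    rw [conj_mul, conj_mul] at h2
    exact mul_left_cancel (mul_right_cancel h2)

/-- Triangles on two classes lie in `P`. -/
theorem SelfCentNine.mem_of_triangle {u y x : G} (hu : u ∈ (P : Subgroup G)) (hu1 : u ≠ 1)
    (hy : y ∈ (P : Subgroup G)) (hy1 : y ≠ 1) (huy : ¬ IsConj u y) (hx : IsConj u x)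
    (hxy : IsConj u (x * y)) : x ∈ (P : Subgroup G) := by
  obtain ⟨c, hc⟩ := isConj_iff.1 hx
  obtain ⟨d, hd⟩ := isConj_iff.1 hxy
  have hxo : orderOf x = 3 := by
    rw [← hc, ← MulAut.conj_apply, MulEquiv.orderOf_eq]; exact h.orderOf_eq hu hu1
  have hxy3 : (x * y) ^ 3 = 1 := by rw [← hd, conj_pow, h.exp u hu, mul_one, mul_inv_cancel]
  rcases triangle_three (fun t ht a b ha hb => (h.cent_three ht ha).2 b hb)
      (fun t ht a ha => (h.cent_three ht ha).1) hxo (h.exp y hy) hxy3 with e | e
  · rw [← h.cent y hy hy1, Subgroup.mem_centralizer_singleton_iff]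
    exact e
  · exact absurd (hx.trans e.1) huy

theorem SelfCentNine.mem_autP_le : nineIndex P ≤ 8 ∧
    ∀ w : (P : Subgroup G), w ≠ 1 → nineIndex P = 8 →
      ∀ w' : (P : Subgroup G), w' ≠ 1 → IsConj (w : G) w' := by
  classical
  have hF := h.isFrobSylow
  have hcard : Nat.card {y : (P : Subgroup G) // y ≠ 1} = 8 := by
    rw [Nat.card_eq_fintype_card, Fintype.card_subtype_compl, Fintype.card_subtype_eq,
      ← Nat.card_eq_fintype_card, h.card]
  let f : ∀ w : (P : Subgroup G), w ≠ 1 → autP P → {y : (P : Subgroup G) // y ≠ 1} := fun w hw α =>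
    ⟨(α : MulAut (P : Subgroup G)) w, fun e => hw ((α : MulAut (P : Subgroup G)).injective
      (e.trans (map_one _).symm))⟩
  have hinj : ∀ w hw, Function.Injective (f w hw) := fun w hw α β e =>
    Subtype.ext (eq_of_autP_apply hF α.2 β.2 hw (congrArg Subtype.val e))
  refine ⟨?_, fun w hw h8 w' hw' => ?_⟩
  · obtain ⟨w, hw⟩ : ∃ w : (P : Subgroup G), w ≠ 1 := by
      haveI : Nontrivial (P : Subgroup G) :=
        Finite.one_lt_card_iff_nontrivial.1 (by rw [h.card]; norm_num)
      exact exists_ne 1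
    have := Nat.card_le_card_of_injective _ (hinj w hw)
    rwa [card_autP hF, hcard] at this
  · have hb : Function.Bijective (f w hw) := by
      refine (Fintype.bijective_iff_injective_and_card _).2 ⟨hinj w hw, ?_⟩
      rw [← Nat.card_eq_fintype_card, ← Nat.card_eq_fintype_card, card_autP hF, h8, hcard]
    obtain ⟨α, hα⟩ := hb.2 ⟨w', hw'⟩
    exact (isConj_iff_autP hF).2 ⟨α, α.2, congrArg Subtype.val hα⟩

theorem SelfCentNine.one_lt_nineIndex [IsSimpleGroup G] : 1 < nineIndex P := by
  have h0 : nineIndex P ≠ 0 := by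
    rw [← card_autP h.isFrobSylow]; exact Nat.card_pos.ne'
  by_contra hlt
  have hle : Subgroup.normalizer ((P : Subgroup G) : Set G) ≤
      Subgroup.centralizer ((P : Subgroup G) : Set G) :=
    Subgroup.relIndex_eq_one.1 (show nineIndex P = 1 by omega)
  have hcomp := MonoidHom.ker_transferSylow_isComplement' P hle
  rcases (MonoidHom.normal_ker (MonoidHom.transferSylow P hle)).eq_bot_or_eq_top with e | e
  all_goals rw [e] at hcomp
  · have hP : (P : Subgroup G) = ⊤ := Subgroup.isComplement'_bot_left.1 hcomp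
    obtain ⟨s, hs⟩ := exists_prime_orderOf_dvd_card' (G := (P : Subgroup G)) 3 (by rw [h.card]; norm_num)
    have hn : (Subgroup.zpowers (s : G)).Normal := ⟨fun a ha g => by
      have hcomm : g * a = a * g := by
        have hg : g ∈ Subgroup.centralizer ((P : Subgroup G) : Set G) := by
          rw [h.centralizer_eq, hP]; trivial
        exact (Subgroup.mem_centralizer_iff.1 hg a (by rw [hP]; trivial)).symm
      rw [hcomm, mul_inv_cancel_right]; exact ha⟩
    have h3 : Nat.card (Subgroup.zpowers (s : G)) = 3 := by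
      rw [Nat.card_zpowers, Subgroup.orderOf_coe, hs]
    rcases hn.eq_bot_or_eq_top with e' | e' <;> rw [e'] at h3
    · simp at h3
    · have h9 := h.card
      rw [hP, Subgroup.card_top] at h9
      rw [Subgroup.card_top] at h3
      omega
  · have hP : (P : Subgroup G) = ⊥ := Subgroup.isComplement'_top_left.1 hcomp
    have h9 := h.card
    rw [hP, Subgroup.card_bot] at h9
    omega

theorem SelfCentNine.exists_inversion (h2 : 2 ∣ nineIndex P) :
    ∃ α ∈ autP P, α ≠ 1 ∧ ∀ w : (P : Subgroup G), α w = w⁻¹ := by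
  have hF := h.isFrobSylow
  haveI := h.comm
  haveI := Fact.mk Nat.prime_two
  obtain ⟨⟨α, hα⟩, hαo⟩ := exists_prime_orderOf_dvd_card' (G := autP P) 2 (by
    rw [card_autP hF]; exact h2)
  have hα1 : α ≠ 1 := fun e => by simp [e] at hαo
  have hα2 : α * α = 1 := by
    have := pow_orderOf_eq_one (⟨α, hα⟩ : autP P)
    rw [hαo, pow_two] at this
    exact congrArg Subtype.val this
  refine ⟨α, hα, hα1, fun w => eq_inv_of_mul_eq_one_left ?_⟩
  by_contra hne
  refine hα1 (autP_free hF hα hne ?_)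
  rw [map_mul, show α (α w) = w from DFunLike.congr_fun hα2 w, mul_comm' w]

theorem SelfCentNine.isConj_inv (h2 : 2 ∣ nineIndex P) {y : G} (hy : y ∈ (P : Subgroup G)) :
    IsConj y y⁻¹ := by
  obtain ⟨α, hα, -, he⟩ := h.exists_inversion h2
  exact (isConj_iff_autP h.isFrobSylow (y := ⟨y, hy⟩) (y' := ⟨y, hy⟩⁻¹)).2 ⟨α, hα, he _⟩

/-- The order of `G` and the number of Sylow subgroups. -/
theorem SelfCentNine.card_group : ∃ n : ℕ, n % 9 = 1 ∧ Nat.card G = n * (9 * nineIndex P) ∧
    Nat.card (Sylow 3 G) = n := by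
  refine ⟨Nat.card (Sylow 3 G), ?_, ?_, rfl⟩
  · have hstab : ∀ Q : Sylow 3 G, Q ≠ P → MulAction.stabilizer (P : Subgroup G) Q = ⊥ := by
      intro Q hQ
      rw [eq_bot_iff]
      intro w hw
      rw [Subgroup.mem_bot]
      by_contra hw1
      have hwN : (w : G) ∈ Subgroup.normalizer ((Q : Subgroup G) : Set G) :=
        Sylow.smul_eq_iff_mem_normalizer.1 hw
      have hwo : orderOf (w : G) = 3 := h.orderOf_eq w.2 fun e => hw1 (Subtype.ext e)
      have hwQ : (w : G) ∈ (Q : Subgroup G) := by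
        have hz : IsPGroup 3 (Subgroup.zpowers (w : G)) :=
          IsPGroup.of_card (n := 1) (by rw [Nat.card_zpowers, hwo, pow_one])
        have hzN : Subgroup.zpowers (w : G) ≤ Subgroup.normalizer ((Q : Subgroup G) : Set G) := by
          rwa [Subgroup.zpowers_le]
        have hsup : IsPGroup 3 (Subgroup.zpowers (w : G) ⊔ (Q : Subgroup G) : Subgroup G) :=
          IsPGroup.to_sup_of_normal_right' hz Q.2 hzN
        have hQe : Subgroup.zpowers (w : G) ⊔ (Q : Subgroup G) = (Q : Subgroup G) :=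
          Q.3 hsup le_sup_right
        exact hQe ▸ Subgroup.mem_sup_left (Subgroup.mem_zpowers (w : G))
      obtain ⟨c, hc⟩ := MulAction.exists_smul_eq G P Q
      refine hQ (Sylow.ext (Subgroup.eq_of_le_of_card_ge ?_ ?_))
      · intro q hq
        rw [← h.cent w w.2 fun e => hw1 (Subtype.ext e), Subgroup.mem_centralizer_singleton_iff]
        have hcom : ∀ a ∈ (Q : Subgroup G), ∀ b ∈ (Q : Subgroup G), a * b = b * a := by
          rw [← hc]
          rintro _ ⟨a, ha, rfl⟩ _ ⟨b, hb, rfl⟩
          haveI := h.comm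
          show c * a * c⁻¹ * (c * b * c⁻¹) = c * b * c⁻¹ * (c * a * c⁻¹)
          rw [conj_mul, conj_mul, show a * b = b * a from
            congrArg Subtype.val (mul_comm' (⟨a, ha⟩ : (P : Subgroup G)) ⟨b, hb⟩)]
        exact hcom q hq w hwQ
      · rw [P.card_eq_multiplicity, Q.card_eq_multiplicity]
    classical
    have hsum := MulAction.selfEquivSigmaOrbitsQuotientStabilizer (P : Subgroup G) (Sylow 3 G)
    haveI := Fintype.ofFinite (Sylow 3 G)
    have hcard : Nat.card (Sylow 3 G) = ∑ ω : MulAction.orbitRel.Quotient (P : Subgroup G) (Sylow 3 G),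
        Nat.card ((P : Subgroup G) ⧸ MulAction.stabilizer (P : Subgroup G) ω.out) := by
      rw [Nat.card_congr hsum, Nat.card_sigma]
    set ωP : MulAction.orbitRel.Quotient (P : Subgroup G) (Sylow 3 G) := Quotient.mk'' P
    have hfix : ∀ w : (P : Subgroup G), w • P = P := fun w =>
      Sylow.smul_eq_iff_mem_normalizer.2 (Subgroup.le_normalizer w.2)
    have hout : ωP.out = P := by
      have : MulAction.orbitRel (P : Subgroup G) (Sylow 3 G) ωP.out P :=
        Quotient.exact' (Quotient.out_eq' ωP)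
      obtain ⟨w, hw⟩ := MulAction.orbitRel_apply.1 this
      rw [← hw]
      exact hfix w
    rw [hcard, ← add_sum_erase _ _ (mem_univ ωP)]
    have h1 : Nat.card ((P : Subgroup G) ⧸ MulAction.stabilizer (P : Subgroup G) ωP.out) = 1 := by
      have : MulAction.stabilizer (P : Subgroup G) ωP.out = ⊤ := by
        rw [hout, eq_top_iff]; exact fun w _ => hfix w
      rw [← Subgroup.index, this, Subgroup.index_top]
    rw [h1, sum_congr rfl (g := fun _ => 9) (fun ω hω => by
      have hne : ω.out ≠ P := fun e => (mem_erase.1 hω).1 (by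
        rw [← Quotient.out_eq' ω, e])
      rw [← Subgroup.index, hstab _ hne, Subgroup.index_bot, h.card]), sum_const, smul_eq_mul]
    omega
  · have hN : Nat.card (Subgroup.normalizer ((P : Subgroup G) : Set G)) = 9 * nineIndex P := by
      rw [nineIndex, h.centralizer_eq, ← h.card, Subgroup.relIndex,
        Nat.card_congr (Subgroup.subgroupOfEquivOfLe (Subgroup.le_normalizer (H := (P : Subgroup G)))).symm.toEquiv,
        Subgroup.card_mul_index]
    rw [Sylow.card_eq_index_normalizer P, ← hN, mul_comm]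
    exact (Subgroup.card_mul_index _).symm

variable {M : Ideal AlgInt} [M.IsPrime] (hM : IsPModular 3 M)
include hM

open scoped Classical in
/-- Characters outside the principal block vanish on `P#`. -/
theorem SelfCentNine.apply_eq_zero [Fintype (IrrCharacter G)] {χ : IrrCharacter G}
    (hχ : χ ∉ principalBlock M G) {y : G} (hy : y ∈ (P : Subgroup G)) (h1 : y ≠ 1) :
    (χ : G → ℂ) y = 0 := by
  have hall := CharTheory.sum_mul_conj y y
  rw [if_pos (IsConj.refl y), h.cent y hy h1] at hall
  have hblock := sum_principal_sq_eq h.isFrobSylow hM hy h1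
  rw [← sum_sdiff (subset_univ (blockFinset (principalBlock M G))), hblock] at hall
  have hzero : ∑ ψ ∈ univ \ blockFinset (principalBlock M G),
      Complex.normSq ((ψ : G → ℂ) y) = 0 := by
    apply Complex.ofReal_injective
    rw [Complex.ofReal_sum, sum_congr rfl fun ψ _ => (Complex.mul_conj _).symm, Complex.ofReal_zero]
    simpa using hall
  exact Complex.normSq_eq_zero.1 ((sum_eq_zero_iff_of_nonneg fun ψ _ => Complex.normSq_nonneg _).1
    hzero χ (mem_sdiff.2 ⟨mem_univ _, fun e => hχ (mem_blockFinset.1 e)⟩))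

open scoped Classical in
/-- The class multiplication formula inside the principal block. -/
theorem SelfCentNine.count_formula {u y : G} (hu : u ∈ (P : Subgroup G)) (hu1 : u ≠ 1)
    (hy : y ∈ (P : Subgroup G)) (hy1 : y ≠ 1) :
    ((univ.filter fun x => IsConj u x ∧ IsConj u (x * y)).card : ℂ) =
      (Nat.card G : ℂ) / 81 * ∑ χ ∈ blockFinset (principalBlock M G),
        (χ : G → ℂ) u * conj ((χ : G → ℂ) u) * (χ : G → ℂ) y / (χ : G → ℂ) 1 := by
  haveI := Fintype.ofFinite (IrrCharacter G)
  have hs := sum_weight_pairs u u (fun w => if w = y then (1 : ℂ) else 0)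
  simp only [ite_mul, one_mul, zero_mul, sum_ite_eq', mem_univ, if_true] at hs
  refine Eq.trans ?_ (Eq.trans hs ?_)
  · congr
  have hidx : ((Subgroup.centralizer ({u} : Set G)).index : ℂ) = (Nat.card G : ℂ) / 9 := by
    rw [eq_div_iff (by norm_num), h.cent u hu hu1, ← Subgroup.index_mul_card (P : Subgroup G), h.card,
      Nat.cast_mul]
    norm_num
  rw [← sum_subset (subset_univ (blockFinset (principalBlock M G))) fun χ _ hχ => by
    rw [h.apply_eq_zero hM (fun e => hχ (mem_blockFinset.2 e)) hy hy1, mul_zero], mul_sum, mul_sum]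
  refine sum_congr rfl fun χ _ => ?_
  have h0 := apply_one_ne_zero_of_isIrr χ.2
  have hG : (Nat.card G : ℂ) ≠ 0 := by simp
  rw [centralChar, hidx]
  field_simp
  ring

variable {m : ℕ} (hF : IsFrobSylow P m) (D : ExcData 3 M P m)
include hF

theorem SelfCentNine.val_X {χ : IrrCharacter G} (hχ : χ ∈ D.X) {y : G}
    (hy : y ∈ (P : Subgroup G)) (h1 : y ≠ 1) : (χ : G → ℂ) y = (D.a χ : ℂ) :=
  D.val_X χ hχ y y (isPPart_self hF hM hy) hy h1

theorem SelfCentNine.real_apply (h2 : 2 ∣ nineIndex P) (χ : IrrCharacter G) {y : G}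
    (hy : y ∈ (P : Subgroup G)) : conj ((χ : G → ℂ) y) = (χ : G → ℂ) y := by
  obtain ⟨c, hc⟩ := isConj_iff.1 (h.isConj_inv h2 hy)
  rw [BrauerCharacters.conj_apply, ← hc, apply_conj_elem]

/-- The exceptional family at two elements of `P#`. -/
theorem SelfCentNine.sum_Y_mul (h2 : 2 ∣ nineIndex P) {u y : (P : Subgroup G)} (hu1 : u ≠ 1)
    (hy1 : y ≠ 1) :
    ∑ η ∈ D.Y.toFinite.toFinset, (η : G → ℂ) u * (η : G → ℂ) y =
      (∑ χ ∈ blockFinset (principalBlock M G), (χ : G → ℂ) u * conj ((χ : G → ℂ) y)) -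
        ∑ χ ∈ D.X.toFinite.toFinset, (D.a χ : ℂ) ^ 2 := by
  rw [sum_split hM D, finsum_mem_eq_finite_toFinset_sum _ D.X.toFinite,
    finsum_mem_eq_finite_toFinset_sum _ D.Y.toFinite]
  rw [sum_congr rfl (s₁ := D.X.toFinite.toFinset) (g := fun χ => (D.a χ : ℂ) ^ 2) fun χ hχ => by
    rw [h.val_X hM hF D (D.X.toFinite.mem_toFinset.1 hχ) u.2 (fun e => hu1 (Subtype.ext e)),
      h.val_X hM hF D (D.X.toFinite.mem_toFinset.1 hχ) y.2 (fun e => hy1 (Subtype.ext e)),
      map_intCast, pow_two]]
  rw [add_sub_cancel_left]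
  exact sum_congr rfl fun η _ => by rw [h.real_apply hM hF h2 η y.2]

/-- The degree relation. -/
theorem SelfCentNine.reg_one {η : IrrCharacter G} (hη : η ∈ D.Y) :
    ((Nat.card D.Y : ℂ) * D.d - D.δ) * (η : G → ℂ) 1 +
      ∑ χ ∈ D.X.toFinite.toFinset, (D.a χ : ℂ) * (χ : G → ℂ) 1 = 0 := by
  rw [← finsum_mem_eq_finite_toFinset_sum _ D.X.toFinite]
  exact D.reg η hη 1 (by rw [orderOf_one]; norm_num)

/-- The values of the exceptional family sum to a constant on `P#`. -/
theorem SelfCentNine.sum_Y_apply (h2 : 2 ∣ nineIndex P) {y : (P : Subgroup G)} (hy1 : y ≠ 1) :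
    ∑ η ∈ D.Y.toFinite.toFinset, (η : G → ℂ) y = (Nat.card D.Y : ℂ) * D.d - D.δ := by
  obtain ⟨η₀, hη₀⟩ : D.Y.Nonempty := by
    rcases D.Y.eq_empty_or_nonempty with e | e
    · have := D.two_le; rw [e] at this; simp at this
    · exact e
  have h1 : ¬ 3 ∣ orderOf (1 : G) := by rw [orderOf_one]; norm_num
  have ho := sum_reg_mul_conj hF hM h1 y.2 (fun e => hy1 (Subtype.ext e))
  rw [sum_split hM D, finsum_mem_eq_finite_toFinset_sum _ D.X.toFinite,
    finsum_mem_eq_finite_toFinset_sum _ D.Y.toFinite,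
    sum_congr rfl (s₁ := D.X.toFinite.toFinset) (g := fun χ => (D.a χ : ℂ) * (χ : G → ℂ) 1)
      (fun χ hχ => by
        rw [h.val_X hM hF D (D.X.toFinite.mem_toFinset.1 hχ) y.2 (fun e => hy1 (Subtype.ext e)),
          map_intCast, mul_comm]),
    sum_congr rfl (s₁ := D.Y.toFinite.toFinset) (g := fun η => (η₀ : G → ℂ) 1 * (η : G → ℂ) y)
      (fun η hη => by
        rw [D.agree η (D.Y.toFinite.mem_toFinset.1 hη) η₀ hη₀ 1 h1, h.real_apply hM hF h2 η y.2]),
    ← mul_sum] at ho
  exact mul_left_cancel₀ (apply_one_ne_zero_of_isIrr η₀.2)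
    (by linear_combination ho - h.reg_one hM hF D hη₀)

end CfsgLib.PermGroups
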