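import Mathlib.GroupTheory.PGroup
import Mathlib.GroupTheory.Sylow
import Mathlib.GroupTheory.OrderOfElement
import Mathlib.GroupTheory.GroupAction.ConjAct
import Mathlib.Algebra.Group.Subgroup.Lattice
import Mathlib.Tactic.Group

/-!
Three elements of order dividing three with product one.
-/

set_option autoImplicit false
set_option linter.style.haveILetI false

namespace CfsgLib.PermGroups

variable {G : Type*} [Group G] [Finite G]

/-- If centralisers of elements of order three are abelian of exponent three then `u³ = v³ = (uv)³`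
forces `uv = vu`, or `u ~ v` and `u⁻¹ ~ uv`. -/
theorem triangle_three
    (hC : ∀ t : G, orderOf t = 3 → ∀ x y : G, x * t = t * x → y * t = t * y → x * y = y * x)
    (hC3 : ∀ t : G, orderOf t = 3 → ∀ x : G, x * t = t * x → x ^ 3 = 1)
    {u v : G} (hu : orderOf u = 3) (hv : v ^ 3 = 1) (huv : (u * v) ^ 3 = 1) :
    u * v = v * u ∨ (IsConj u v ∧ IsConj u⁻¹ (u * v)) := by
  haveI : Fact (Nat.Prime 3) := ⟨Nat.prime_three⟩
  have hu3 : u * u * u = 1 := by rw [← pow_three', ← hu, pow_orderOf_eq_one]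
  have hu2 : u * u = u⁻¹ := eq_inv_of_mul_eq_one_left hu3
  have hv2 : v * v = v⁻¹ := eq_inv_of_mul_eq_one_left (by rw [← pow_three']; exact hv)
  have hbr : v * u * v = u⁻¹ * v⁻¹ * u⁻¹ := by
    have h := huv
    rw [pow_three'] at h
    calc v * u * v = u⁻¹ * (u * v * (u * v) * (u * v)) * v⁻¹ * u⁻¹ := by group
      _ = u⁻¹ * v⁻¹ * u⁻¹ := by rw [h, mul_one]
  set a := u⁻¹ * v with ha
  set b := v * u⁻¹ with hb
  have hab : a * b = b * a := by
    calc a * b = u⁻¹ * (v * v) * u⁻¹ := by rw [ha, hb]; group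
      _ = v * u * v := by rw [hv2, hbr]
      _ = v * (u * u * u) * (u⁻¹ * u⁻¹) * v := by group
      _ = b * a := by rw [hu3, ha, hb]; group
  have hcb : u * b * u⁻¹ = (a * b)⁻¹ := by
    have h1 : a * b * (u * b * u⁻¹) = 1 := by
      calc a * b * (u * b * u⁻¹) = u⁻¹ * (v * v) * u⁻¹ * u * v * u⁻¹ * u⁻¹ := by rw [ha, hb]; group
        _ = u⁻¹ * (v⁻¹ * v) * (u⁻¹ * u⁻¹) := by rw [hv2]; group
        _ = (u * u * u)⁻¹ := by group
        _ = 1 := by rw [hu3, inv_one]
    exact eq_inv_of_mul_eq_one_right h1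
  have hca : u * a * u⁻¹ = b := by rw [ha, hb]; group
  set A := Subgroup.closure ({a, b} : Set G) with hA
  haveI hAc : IsMulCommutative A := Subgroup.isMulCommutative_closure (by
    rintro x (rfl | rfl) y (rfl | rfl)
    · rfl
    · exact hab
    · exact hab.symm
    · rfl)
  have hcomm : ∀ x ∈ A, ∀ y ∈ A, x * y = y * x := fun x hx y hy =>
    congrArg Subtype.val (hAc.is_comm.comm (⟨x, hx⟩ : A) ⟨y, hy⟩)
  have hmapA : ∀ x ∈ A, u * x * u⁻¹ ∈ A := by
    intro x hx
    induction hx using Subgroup.closure_induction with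
    | mem z hz =>
      rcases hz with rfl | rfl
      · rw [hca]; exact Subgroup.subset_closure (Set.mem_insert_of_mem _ rfl)
      · rw [hcb]
        exact inv_mem (mul_mem (Subgroup.subset_closure (Set.mem_insert _ _))
          (Subgroup.subset_closure (Set.mem_insert_of_mem _ rfl)))
    | one => rw [mul_one, mul_inv_cancel]; exact one_mem _
    | mul y z _ _ hy hz => rw [conj_mul.symm]; exact mul_mem hy hz
    | inv y _ hy => rw [← conj_inv]; exact inv_mem hy
  have hmapA' : ∀ x ∈ A, u⁻¹ * x * u ∈ A := by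
    intro x hx
    have := hmapA _ (hmapA x hx)
    rwa [show u * (u * x * u⁻¹) * u⁻¹ = (u * u) * x * (u * u)⁻¹ by group, hu2, inv_inv] at this
  have haA : a ∈ A := Subgroup.subset_closure (Set.mem_insert _ _)
  by_cases h3 : 3 ∣ Nat.card A
  · left
    let T : Subgroup A :=
      { carrier := {x | x ^ 3 = 1}
        one_mem' := one_pow _
        mul_mem' := fun {x y} hx hy => by
          show (x * y) ^ 3 = 1
          rw [(show Commute x y from hAc.is_comm.comm x y).mul_pow,
            show x ^ 3 = 1 from hx, show y ^ 3 = 1 from hy, one_mul]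
        inv_mem' := fun {x} hx => by show x⁻¹ ^ 3 = 1; rw [inv_pow, show x ^ 3 = 1 from hx, inv_one] }
    let N := T.map A.subtype
    have huN : ∀ k ∈ Subgroup.zpowers u, ∀ x ∈ N, k * x * k⁻¹ ∈ N := by
      have h1 : ∀ x ∈ N, u * x * u⁻¹ ∈ N := by
        rintro _ ⟨x, hx, rfl⟩
        refine ⟨⟨_, hmapA x x.2⟩, Subtype.ext ?_, rfl⟩
        show (u * (x : G) * u⁻¹) ^ 3 = 1
        rw [conj_pow, show (x : G) ^ 3 = 1 from congrArg Subtype.val hx, mul_one, mul_inv_cancel]
      intro k hk
      have hk' : k ∈ Submonoid.powers u :=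
        ((isOfFinOrder_of_finite u).mem_powers_iff_mem_zpowers).2 hk
      obtain ⟨n, rfl⟩ := hk'
      clear hk
      intro x hx
      show u ^ n * x * (u ^ n)⁻¹ ∈ N
      induction n with
      | zero => simpa using hx
      | succ n ih =>
        rw [show u ^ (n + 1) * x * (u ^ (n + 1))⁻¹ = u * (u ^ n * x * (u ^ n)⁻¹) * u⁻¹ by
          rw [pow_succ']; group]
        exact h1 _ ih
    letI act : MulAction (Subgroup.zpowers u) N :=
      { smul := fun k x => ⟨k * x * (k : G)⁻¹, huN k k.2 x x.2⟩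
        one_smul := fun x => Subtype.ext (by show (1 : G) * x * (1 : G)⁻¹ = x; simp)
        mul_smul := fun k l x => Subtype.ext (by
          show (k : G) * l * x * ((k : G) * l)⁻¹ = k * (l * x * (l : G)⁻¹) * (k : G)⁻¹
          group) }
    have hU : IsPGroup 3 (Subgroup.zpowers u) :=
      IsPGroup.of_card (n := 1) (by rw [Nat.card_zpowers, hu, pow_one])
    have hN : 3 ∣ Nat.card N := by
      obtain ⟨x, hx⟩ := exists_prime_orderOf_dvd_card' (G := A) 3 h3
      have hxN : (x : G) ∈ N := ⟨x, by show x ^ 3 = 1; rw [← hx, pow_orderOf_eq_one], rfl⟩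
      have := Subgroup.orderOf_dvd_natCard N hxN
      rwa [Subgroup.orderOf_coe, hx] at this
    obtain ⟨t, ht, ht1⟩ := hU.exists_fixed_point_of_prime_dvd_card_of_fixed_point N hN
      (a := (1 : N)) (fun k => Subtype.ext (by show (k : G) * 1 * (k : G)⁻¹ = 1; simp))
    have htA : (t : G) ∈ A := Subgroup.map_subtype_le T t.2
    have ht3 : (t : G) ^ 3 = 1 := by
      obtain ⟨x, hx, hxe⟩ := t.2
      rw [← hxe]
      exact congrArg Subtype.val hx
    have htord : orderOf (t : G) = 3 :=
      orderOf_eq_prime ht3 fun e => ht1 (Subtype.ext e.symm)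
    have hut : u * t = t * u := by
      have := congrArg Subtype.val (ht ⟨u, Subgroup.mem_zpowers u⟩)
      exact mul_inv_eq_iff_eq_mul.1 this
    have hua := hC t htord u a hut (hcomm a haA t htA)
    calc u * v = u * (u * a) := by rw [ha]; group
      _ = u * (a * u) := by rw [hua]
      _ = v * u := by rw [ha]; group
  · right
    have hfix : ∀ x ∈ A, x * u = u * x → x = 1 := by
      intro x hx hxu
      have h1 : orderOf x ∣ 3 := orderOf_dvd_of_pow_eq_one (hC3 u hu x hxu)
      rcases (Nat.dvd_prime Nat.prime_three).1 h1 with e | e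
      · exact orderOf_eq_one_iff.1 e
      · exact absurd (e ▸ Subgroup.orderOf_dvd_natCard A hx) h3
    have key : ∀ w : G, (∀ x ∈ A, w⁻¹ * x * w ∈ A) → (∀ x ∈ A, x * w = w * x → x = 1) →
        IsConj w (w * a) := by
      intro w hw hfw
      let f : A → A := fun k => ⟨w⁻¹ * k * w * (k : G)⁻¹, mul_mem (hw k k.2) (inv_mem k.2)⟩
      have hinj : Function.Injective f := by
        intro k l e
        have e' : w⁻¹ * k * w * (k : G)⁻¹ = w⁻¹ * l * w * (l : G)⁻¹ := congrArg Subtype.val e
        have h1 : (l : G)⁻¹ * k = w⁻¹ * ((l : G)⁻¹ * k) * w := by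
          calc (l : G)⁻¹ * k = (w⁻¹ * (l : G)⁻¹ * w) * (w⁻¹ * l * w * (l : G)⁻¹) * k := by group
            _ = (w⁻¹ * (l : G)⁻¹ * w) * (w⁻¹ * k * w * (k : G)⁻¹) * k := by rw [e']
            _ = _ := by group
        have := hfw _ (mul_mem (inv_mem l.2) k.2) (by
          calc (l : G)⁻¹ * k * w = w * (w⁻¹ * ((l : G)⁻¹ * k) * w) := by group
            _ = w * ((l : G)⁻¹ * k) := by rw [← h1])
        exact Subtype.ext (inv_mul_eq_one.1 this).symm
      obtain ⟨k, hk⟩ := (Finite.injective_iff_surjective.1 hinj) ⟨a, haA⟩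
      refine isConj_iff.2 ⟨k, ?_⟩
      have hk' : w⁻¹ * k * w * (k : G)⁻¹ = a := congrArg Subtype.val hk
      rw [← hk']; group
    refine ⟨?_, ?_⟩
    · have := key u hmapA' hfix
      rwa [ha, mul_inv_cancel_left] at this
    · have := key u⁻¹ (fun x hx => by rw [inv_inv]; exact hmapA x hx) fun x hx e => hfix x hx (by
        calc x * u = u * (u⁻¹ * x) * u := by group
          _ = u * (x * u⁻¹) * u := by rw [e]
          _ = u * x := by group)
      rwa [ha, show u⁻¹ * (u⁻¹ * v) = u * v by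
        rw [← mul_assoc, ← mul_inv_rev, hu2, inv_inv]] at this

end CfsgLib.PermGroups
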